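import Cfsg.Agent.Lib.Len8.FF

/-!
# Amalgams of index `(3,2)` with an edge stabilizer of order at most 64: the local structure
-/

set_option autoImplicit false

namespace Cfsg.Lib.Len8
open Subgroup Cfsg.Lib Cfsg.Lib.FT Cfsg.Lib.Bender

variable {G : Type*} [Group G]

/-- `Ω₁(Z(Q))` -/
def om (Q : Subgroup G) : Subgroup G where
  carrier := {x | x ∈ Q ∧ x ∈ C[Q] ∧ x * x = 1}
  one_mem' := ⟨one_mem _, one_mem _, one_mul _⟩
  mul_mem' := fun {x y} hx hy => ⟨mul_mem hx.1 hy.1, mul_mem hx.2.1 hy.2.1, by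
    rw [mul_assoc, ← mul_assoc y, hx.2.1 y hy.1, mul_assoc, hy.2.2, mul_one, hx.2.2]⟩
  inv_mem' := fun {x} hx => ⟨inv_mem hx.1, inv_mem hx.2.1, by rw [← mul_inv_rev, hx.2.2, inv_one]⟩

theorem om_le (Q : Subgroup G) : om Q ≤ Q := fun _ h => h.1

theorem om_conj (g : G) (Q : Subgroup G) : g •ᶜ om Q = om (g •ᶜ Q) := by
  ext x
  rw [mem_map_conj]
  show _ ∧ _ ∧ _ ↔ _ ∧ _ ∧ _
  rw [← conj_centralizer, mem_map_conj, mem_map_conj]
  refine and_congr_right fun _ => and_congr_right fun _ => ?_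
  rw [show g⁻¹ * x * g * (g⁻¹ * x * g) = g⁻¹ * (x * x) * g⁻¹⁻¹ by group, conj_eq_one_iff]

theorem om_norm (Q : Subgroup G) : N[Q] ≤ N[om Q] := fun g hg => by
  rw [← conj_eq_iff_mem_normalizer] at hg ⊢
  rw [om_conj, hg]

theorem mem_norm_of_conj_le [Finite G] {Y : Subgroup G} {g : G} (h : g •ᶜ Y ≤ Y) : g ∈ N[Y] :=
  conj_eq_iff_mem_normalizer.1 (eq_of_le_of_card_ge h (card_conj g Y).ge)

theorem mul_mem_of_two {A B : Subgroup G} (h : A.relIndex B = 2) {x y : G} (hx : x ∈ B) (hy : y ∈ B)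
    (hx' : x ∉ A) (hy' : y ∉ A) : x * y ∈ A :=
  (mul_mem_iff_of_index_two (H := A.subgroupOf B) h (a := ⟨x, hx⟩) (b := ⟨y, hy⟩)).2
    (iff_of_false hx' hy')

theorem relIndex_two_of_card [Finite G] {A B : Subgroup G} (hle : A ≤ B)
    (h : Nat.card B = 2 * Nat.card A) : A.relIndex B = 2 := by
  have := relIndex_mul_card hle
  rw [h] at this
  exact Nat.eq_of_mul_eq_mul_right Nat.card_pos this

/-- the data of the amalgam -/
structure Am (M R Q : Subgroup G) (a z : G) : Prop where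
  pg : IsPGroup 2 R
  RM : R ≤ M
  QR : Q ≤ R
  nQ : M ≤ N[Q]
  max : ∀ K, R ≤ K → K ≤ M → K = R ∨ K = M
  core : ∀ Y ≤ R, M ≤ N[Y] → Y ≤ Q
  cent : M ⊓ C[Q] ≤ Q
  ne : ¬ R ≤ Q
  aN : a ∈ N[R]
  aa : a * a ∈ R
  iz : IsInv z
  zR : z ∈ R
  Rz : R ≤ C1[z]
  Mz : M ⊓ C1[z] ≤ R
  hY : ∀ Y ≤ R, M ≤ N[Y] → a ∈ N[Y] → ¬ M ⊓ C[Y] ≤ R
  card : Nat.card R ≤ 64

/-- the local structure at a vertex -/
structure Loc (M R Q : Subgroup G) (c : G) : Prop where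
  i2 : Q.relIndex R = 2
  i3 : R.relIndex M = 3
  cV : c ∈ om Q
  c1 : c ≠ 1
  tv : ∀ x ∈ R, ∀ v ∈ om Q, x * v * x⁻¹ = v ∨ x * v * x⁻¹ = v * c
  fix : ∀ x ∈ M, x * c * x⁻¹ = c ↔ x ∈ R

namespace Am
variable {M R Q : Subgroup G} {a z : G} (h : Am M R Q a z)
include h

theorem QM : Q ≤ M := h.QR.trans h.RM

theorem nV : M ≤ N[om Q] := h.nQ.trans (om_norm Q)

theorem zV : z ∈ om Q :=
  have : z ∈ C[Q] := fun _ hy => mem_centralizer_singleton_iff.1 (h.Rz (h.QR hy))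
  ⟨h.cent ⟨h.RM h.zR, this⟩, this, h.iz.mul_self⟩

theorem CV : M ⊓ C[om Q] ≤ Q :=
  h.core _ ((inf_le_inf_left M (centralizer_le (Set.singleton_subset_iff.2 h.zV))).trans h.Mz)
    (le_normalizer_inf le_normalizer (h.nV.trans (normalizer_le_normalizer_centralizer _)))

theorem norm {g : G} (hg : g ∈ M) (hn : g ∈ N[R]) : g ∈ R := by
  rcases h.max (M ⊓ N[R]) (le_inf h.RM le_normalizer) inf_le_left with e | e
  · exact e.le ⟨hg, hn⟩
  · exact absurd (h.core R le_rfl (e.ge.trans inf_le_right)) h.ne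

theorem exists_not_mem : ∃ g ∈ M, g ∉ R := by
  by_contra hc
  push Not at hc
  exact h.ne (h.core R le_rfl fun g hg => le_normalizer (hc g hg))

theorem le_of_gen {K : Subgroup G} (hR : R ≤ K) {y : G} (hy : y ∈ M) (hy' : y ∉ R) (hK : y ∈ K) :
    M ≤ K := by
  rcases h.max (M ⊓ K) (le_inf h.RM hR) inf_le_left with e | e
  · exact absurd (e.le ⟨hy, hK⟩) hy'
  · exact e.ge.trans inf_le_right

theorem aR : a •ᶜ R = R := conj_eq_iff_mem_normalizer.2 h.aN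

theorem not_V_le {Y : Subgroup G} (hY : Y ≤ R) (h1 : M ≤ N[Y]) (h2 : a ∈ N[Y]) : ¬ om Q ≤ Y :=
  fun e => h.hY Y hY h1 h2 (((inf_le_inf_left M (centralizer_le e)).trans h.CV).trans h.QR)

theorem loc [Finite G] {A : Subgroup G} (hA : A ≤ R) (hA2 : ∀ x ∈ A, x * x = 1) (hAQ : ¬ A ≤ Q)
    (hoff : Nat.card (om Q) * Nat.card ↥(A ⊓ Q) ≤ Nat.card A * Nat.card ↥(om Q ⊓ C[A])) :
    ∃ c, Loc M R Q c := by
  let φ : M →* MulAut (om Q) := (om Q).normalizerMonoidHom.comp (inclusion h.nV)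
  have hφ : ∀ (x : M) (v : om Q), (φ x v : G) = x * v * (x : G)⁻¹ := fun _ _ => rfl
  have hker : φ.ker = Q.subgroupOf M := by
    ext x
    refine ⟨fun e => h.CV ⟨x.2, fun y hy => ?_⟩, fun e => ?_⟩
    · have := hφ x ⟨y, hy⟩
      rw [MonoidHom.mem_ker.1 e] at this
      exact (mul_inv_eq_iff_eq_mul.1 this.symm).symm
    · ext v
      rw [hφ, v.2.2.1 x e, mul_inv_cancel_right]
      rfl
  have hQR : Q.subgroupOf M ≤ R.subgroupOf M := comap_mono h.QR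
  have hcm : (((R.subgroupOf M).map φ).comap φ) = R.subgroupOf M := by
    rw [comap_map_eq, hker, sup_eq_left.2 hQR]
  have hmem : ∀ x : M, φ x ∈ (R.subgroupOf M).map φ ↔ (x : G) ∈ R := fun x => by
    rw [← mem_comap, hcm, mem_subgroupOf]
  have hcard : ∀ B ≤ M, Nat.card ((B.subgroupOf M).map φ) * Nat.card ↥(B ⊓ Q) = Nat.card B := by
    intro B hB
    have := pg_card_map_mul_card_ker φ (B.subgroupOf M)
    rwa [hker, show B.subgroupOf M ⊓ Q.subgroupOf M = (B ⊓ Q).subgroupOf M from rfl, Nat.card_congr (subgroupOfEquivOfLe hB).toEquiv,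
      Nat.card_congr (subgroupOfEquivOfLe (inf_le_left.trans hB)).toEquiv] at this
  have hP : Prim ((R.subgroupOf M).map φ) φ.range := by
    refine ⟨map_le_range _ _, h.pg.comap_subtype.map _, fun K h1 h2 => ?_, fun Y h1 h2 => ?_, fun e => ?_⟩
    · rcases h.max ((K.comap φ).map M.subtype) (fun x hx => ⟨⟨x, h.RM hx⟩,
        h1 ((hmem _).2 hx), rfl⟩) (map_subtype_le _) with e | e
      · refine Or.inl (le_antisymm (fun k hk => ?_) h1)
        obtain ⟨x, rfl⟩ := h2 hk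
        exact (hmem x).2 (e.le (mem_map_of_mem _ hk))
      · refine Or.inr (le_antisymm h2 ?_)
        rintro _ ⟨x, rfl⟩
        obtain ⟨y, hy, e'⟩ := e.ge x.2
        exact Subtype.ext e' ▸ hy
    · have := h.core ((Y.comap φ).map M.subtype) (by
        rintro _ ⟨x, hx, rfl⟩
        exact (hmem x).1 (h1 hx)) (fun m hm => mem_norm_of_conj_le (by
          rintro _ ⟨_, ⟨x, hx, rfl⟩, rfl⟩
          refine ⟨⟨m, hm⟩ * x * ⟨m, hm⟩⁻¹, ?_, rfl⟩
          simpa using conj_mem_of_le_normalizer h2 ⟨⟨m, hm⟩, rfl⟩ hx))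
      refine eq_bot_iff.2 fun y hy => ?_
      obtain ⟨x, rfl⟩ := map_le_range _ _ (h1 hy)
      exact hker.ge (this (mem_map_of_mem _ hy))
    · exact h.ne fun x hx => hker.le (e.le ((hmem ⟨x, h.RM hx⟩).2 hx))
  have hR := hcard R h.RM
  rw [inf_eq_right.2 h.QR] at hR
  obtain ⟨h1, h2, c, c1, h3, h4⟩ := ff (fun v : om Q => Subtype.ext v.2.2.2) hP (z := ⟨z, h.zV⟩)
    (fun e => h.iz.ne_one (congrArg Subtype.val e)) (by
      rintro _ ⟨x, rfl⟩
      rw [hmem, Subtype.ext_iff, hφ, mul_inv_eq_iff_eq_mul]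
      exact ⟨fun e => h.Mz ⟨x.2, mem_centralizer_singleton_iff.2 e⟩,
        fun e => mem_centralizer_singleton_iff.1 (h.Rz e)⟩)
    ((Nat.mul_le_mul_left _ (card_le_of_le (om_le Q))).trans (hR ▸ h.card))
    (A := (A.subgroupOf M).map φ) (map_mono (comap_mono hA)) (by
      rintro _ ⟨x, hx, rfl⟩
      rw [← map_mul, show x * x = 1 from Subtype.ext (hA2 x hx), map_one])
    (fun e => hAQ fun x hx => hker.le (e.le (mem_map_of_mem φ (x := ⟨x, h.RM (hA hx)⟩) hx)))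
    (F := C[A].subgroupOf (om Q)) (by
      rintro _ ⟨x, hx, rfl⟩ v hv
      exact Subtype.ext ((hφ x v).trans (mul_inv_eq_iff_eq_mul.2 (hv x hx)))) (by
      rw [← hcard A (hA.trans h.RM), mul_right_comm] at hoff
      rw [← inf_subgroupOf_left C[A], Nat.card_congr (subgroupOfEquivOfLe inf_le_left).toEquiv]
      exact Nat.le_of_mul_le_mul_right hoff Nat.card_pos)
  refine ⟨c, relIndex_two_of_card h.QR (by rw [← hR, h1]), ?_, c.2,
    fun e => c1 (Subtype.ext e), fun x hx v hv => ?_, fun x hx => ?_⟩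
  · rw [MonoidHom.range_eq_map, relIndex_map_map, hker, sup_eq_left.2 hQR, top_sup_eq,
      relIndex_top_right] at h2
    exact h2
  · exact (h3 _ ((hmem ⟨x, h.RM hx⟩).2 hx) ⟨v, hv⟩).imp (congrArg Subtype.val) (congrArg Subtype.val)
  · rw [← hmem ⟨x, hx⟩, ← h4 _ ⟨_, rfl⟩, Subtype.ext_iff, hφ]

theorem loc' [Finite G] (k : G) {A : Subgroup G} (hA : A ≤ k •ᶜ R) (hA2 : ∀ x ∈ A, x * x = 1)
    (hAQ : ¬ A ≤ k •ᶜ Q) (hoff : Nat.card (om Q) * Nat.card ↥(A ⊓ k •ᶜ Q) ≤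
      Nat.card A * Nat.card ↥((k •ᶜ om Q) ⊓ C[A])) : ∃ c, Loc M R Q c := by
  obtain ⟨B, rfl⟩ : ∃ B, A = k •ᶜ B := ⟨k⁻¹ •ᶜ A, by rw [conj_conj, mul_inv_cancel, conj_eq_of_mem (one_mem _)]⟩
  rw [← conj_centralizer, ← conj_inf, ← conj_inf, card_conj, card_conj, card_conj] at hoff
  refine h.loc (conj_le_conj_iff.1 hA) (fun x hx => ?_) (fun e => hAQ (conj_le_conj_iff.2 e)) hoff
  have := hA2 _ (conj_mem_conj hx k)
  rwa [show k * x * k⁻¹ * (k * x * k⁻¹) = k * (x * x) * k⁻¹ by group, conj_eq_one_iff] at this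

theorem inf_le [Finite G] {c : G} (l : Loc M R Q c) {m x : G} (hm : m ∈ M) (hm' : m ∉ R) (hx : x ∈ R)
    (hx' : m⁻¹ * x * m ∈ R) : x ∈ Q := by
  by_contra e
  refine hm' (h.norm hm (inv_mem_iff.1 (mem_norm_of_conj_le ?_)))
  rintro _ ⟨y, hy, rfl⟩
  have hQ : ∀ q ∈ Q, m⁻¹ * q * m ∈ R := fun q hq => h.QR (conj_mem_of_le_normalizer' h.nQ hm hq)
  by_cases e' : y ∈ Q
  · simpa using hQ y e'
  · have := R.mul_mem (R.inv_mem hx') (hQ _ (mul_mem_of_two l.i2 hx hy e e'))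
    simpa [mul_assoc] using this

end Am

end Cfsg.Lib.Len8
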