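import Cfsg.Agent.Lib.Bender.Inv
import Cfsg.Agent.Lib.Char.Burnside
import Cfsg.Agent.Lib.Misc.Invol

/-!
# Small failure of factorization modules for groups with a maximal Sylow 2-subgroup
-/

set_option autoImplicit false

namespace Cfsg.Lib.Len8
open Subgroup Cfsg.Lib Cfsg.Lib.FT Cfsg.Lib.Bender

theorem comm_of_card_dvd_four {E : Type*} [Group E] (h : Nat.card E ∣ 4) (x y : E) : x * y = y * x := by
  have := Nat.le_of_dvd (by norm_num) h
  have h0 : Nat.card E ≠ 0 := fun e => by simp [e] at h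
  have : Finite E := Nat.finite_of_card_ne_zero h0
  obtain e | e | e : Nat.card E = 1 ∨ Nat.card E = 2 ∨ Nat.card E = 2 ^ 2 := by
    generalize Nat.card E = n at *
    interval_cases n <;> simp_all
  · exact (Nat.card_eq_one_iff_unique.1 e).1.elim _ _
  · exact (isCyclic_of_prime_card e).isMulCommutative.is_comm.comm x y
  · exact (IsPGroup.isMulCommutative_of_card_eq_prime_sq e).is_comm.comm x y

/-- `T` is a core-free maximal subgroup of `X` and a non-trivial 2-group -/
structure Prim {E : Type*} [Group E] (T X : Subgroup E) : Prop where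
  le : T ≤ X
  pg : IsPGroup 2 T
  max : ∀ K, T ≤ K → K ≤ X → K = T ∨ K = X
  core : ∀ Y ≤ T, X ≤ N[Y] → Y = ⊥
  ne : T ≠ ⊥

namespace Prim
variable {E : Type*} [Group E] {T X : Subgroup E} (h : Prim T X)
include h

theorem norm {g : E} (hg : g ∈ X) (hn : g ∈ N[T]) : g ∈ T := by
  rcases h.max (X ⊓ N[T]) (le_inf h.le le_normalizer) inf_le_left with e | e
  · exact e.le ⟨hg, hn⟩
  · exact absurd (h.core T le_rfl (e.ge.trans inf_le_right)) h.ne

theorem exists_not_mem : ∃ g ∈ X, g ∉ T := by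
  by_contra hc
  push Not at hc
  exact h.ne (h.core T le_rfl fun g hg => le_normalizer (hc g hg))

theorem cent {v g : E} (hv : v ∈ T) (h1 : v ≠ 1) (hc : T ≤ C1[v]) (hg : g ∈ X) (hgv : g ∈ C1[v]) :
    g ∈ T := by
  rcases h.max (X ⊓ C1[v]) (le_inf h.le hc) inf_le_left with e | e
  · exact e.le ⟨hg, hgv⟩
  · refine absurd (h.core (zpowers v) (zpowers_le.2 hv) fun x hx => ?_) (by simpa using h1)
    have := mem_centralizer_singleton_iff.1 (e.ge hx).2
    rw [← conj_eq_iff_mem_normalizer, conj_zpowers, this, mul_inv_cancel_right]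

theorem sylow [Finite E] : IsSylowIn 2 T X := by
  by_contra hc
  obtain ⟨R, -, h1, h2, h3⟩ := exists_lt_of_not_isSylowIn h.pg h.le hc
  exact h1.not_ge fun x hx => h.norm (h2 hx) (h3 hx)

theorem card_dvd [Finite E] {p : ℕ} (hp : p.Prime) (hi : T.relIndex X = p) : Nat.card T ∣ p - 1 := by
  have := Fact.mk hp
  obtain ⟨k, hk⟩ := h.pg.exists_card_eq
  have hX : Nat.card X = 2 ^ k * p := by rw [← hk, ← hi, ← relIndex_mul_card h.le, mul_comm]
  have hs : Group.IsSolvable X := burnside_solvable_of_card_dvd Nat.prime_two hp (a := k) (b := 1)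
    (by rw [hX, pow_one])
  obtain ⟨q, hq, hN⟩ := exists_piCoreOf_singleton_ne_bot hs fun e => h.ne (eq_bot_iff.2 (e ▸ h.le))
  have := Fact.mk hq
  set N := piCoreOf {q} X
  have hNX : N ≤ X := piCoreOf_le _ _
  have hXN : X ≤ N[N] := le_normalizer_piCoreOf _ _
  have hNq : IsPGroup q N := isPGroup_piCoreOf_singleton q X
  have hNT : ¬ N ≤ T := fun e => hN (h.core N e hXN)
  have hq2 : q ≠ 2 := by
    rintro rfl
    exact hNT (piCoreOf_le_isSylowIn h.sylow)
  have hd : T ⊓ N = ⊥ := disjoint_iff.1 (IsPGroup.disjoint_of_ne 2 q hq2.symm _ _ h.pg hNq)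
  have hsup : T ⊔ N = X := (h.max _ le_sup_left (sup_le h.le hNX)).resolve_left fun e =>
    hNT (e ▸ le_sup_right)
  have hc : Nat.card N = p := by
    have := card_sup_mul_card_inf (h.le.trans hXN)
    rw [hd, hsup, hX, hk, card_bot, mul_one] at this
    exact (Nat.eq_of_mul_eq_mul_left (by positivity) this).symm
  have hcy : IsCyclic N := isCyclic_of_prime_card hc
  have hC : T ⊓ C[N] = ⊥ := h.core _ inf_le_left (hsup.ge.trans (sup_le
    (le_normalizer_inf le_normalizer ((h.le.trans hXN).trans (normalizer_le_normalizer_centralizer _)))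
    (le_trans (le_centralizer_iff.1 inf_le_right) (centralizer_le_normalizer _))))
  let φ : T →* MulAut N := N.normalizerMonoidHom.comp (inclusion (h.le.trans hXN))
  have hφ : Function.Injective φ := by
    rw [injective_iff_map_eq_one]
    intro x hx
    have : (x : E) ∈ T ⊓ C[N] := ⟨x.2, fun y hy => by
      have := congrArg (fun f : MulAut N => (f ⟨y, hy⟩ : E)) hx
      exact (mul_inv_eq_iff_eq_mul.1 this).symm⟩
    exact Subtype.ext (mem_bot.1 (hC ▸ this))
  have := card_dvd_of_injective φ hφ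
  rwa [IsCyclic.card_mulAut, hc, Nat.totient_prime hp] at this

variable (hT : ∀ x ∈ T, ∀ y ∈ T, x * y = y * x)
include hT

theorem mem_of_conj {v g : E} (hv : v ∈ T) (h1 : v ≠ 1) (hg : g ∈ X) (hc : g * v * g⁻¹ ∈ T)
    [Finite E] : g ∈ T := by
  refine h.norm hg (conj_eq_iff_mem_normalizer.1 (eq_of_le_of_card_ge ?_ (card_conj g T).ge))
  rintro _ ⟨x, hx, rfl⟩
  refine h.cent hc (by simpa using h1) (fun y hy => mem_centralizer_singleton_iff.2 (hT y hy _ hc))
    (X.mul_mem (X.mul_mem hg (h.le hx)) (X.inv_mem hg)) (mem_centralizer_singleton_iff.2 ?_)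
  show g * x * g⁻¹ * (g * v * g⁻¹) = g * v * g⁻¹ * (g * x * g⁻¹)
  calc _ = g * (x * v) * g⁻¹ := by group
    _ = _ := by rw [hT x hx v hv]; group

theorem odd_mul [Finite E] {x y g : E} (hx : x ∈ T) (hy : y ∈ T) (ix : IsInv x) (iy : IsInv y)
    (hg : g ∈ X) (hgT : g ∉ T) : Odd (orderOf (x * (g * y * g⁻¹))) := by
  by_contra ho
  have hy' : g * y * g⁻¹ ∈ X := X.mul_mem (X.mul_mem hg (h.le hy)) (X.inv_mem hg)
  obtain ⟨m, -, h2, h3, h4⟩ := h9_central_invol_of_even ix.mul_self (iy.conj g).mul_self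
    (Nat.not_odd_iff_even.1 ho)
  have hC : ∀ v ∈ T, T ≤ C1[v] := fun v hv w hw => mem_centralizer_singleton_iff.2 (hT w hw v hv)
  have h5 := h.cent hx ix.ne_one (hC x hx) (X.pow_mem (X.mul_mem (h.le hx) hy') m)
    (mem_centralizer_singleton_iff.2 h3)
  have h6 := h.cent h5 (isInv_iff_orderOf.2 h2).ne_one (hC _ h5) hy'
    (mem_centralizer_singleton_iff.2 h4.symm)
  exact hgT (h.mem_of_conj hT hy iy.ne_one hg h6)

theorem inv_eq [Finite E] {x y : E} (hx : x ∈ T) (hy : y ∈ T) (ix : IsInv x) (iy : IsInv y) :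
    x = y := by
  obtain ⟨g, hg, hgT⟩ := h.exists_not_mem
  obtain ⟨k, hk⟩ := h9_conj_of_odd ix.mul_self (iy.conj g).mul_self (h.odd_mul hT hx hy ix iy hg hgT)
  set l := (x * (g * y * g⁻¹)) ^ k
  have hl : l ∈ X := X.pow_mem (X.mul_mem (h.le hx)
    (X.mul_mem (X.mul_mem hg (h.le hy)) (X.inv_mem hg))) k
  have e : g⁻¹ * l * x * (g⁻¹ * l)⁻¹ = y := by
    calc _ = g⁻¹ * (l * x * l⁻¹) * g := by group
      _ = _ := by rw [hk]; group
  have := h.mem_of_conj hT hx ix.ne_one (X.mul_mem (X.inv_mem hg) hl) (e ▸ hy)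
  rw [← e, hT _ this x hx, mul_inv_cancel_right]

end Prim

section transv
variable {V : Type*} [Group V] (hV : ∀ v : V, v * v = 1)
include hV

theorem comm_of_sq (v w : V) : v * w = w * v := h9_comm_of_sq (hV v) (hV w) (hV _)

/-- two transvections with the same centre commute -/
theorem transv_comm {s s' : MulAut V} {c : V} (h : ∀ v, s v = v ∨ s v = v * c)
    (h' : ∀ v, s' v = v ∨ s' v = v * c) (e : s c = c) (e' : s' c = c) : s * s' = s' * s := by
  ext v
  simp only [MulAut.mul_apply]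
  rcases h v with a | a <;> rcases h' v with b | b <;> simp only [a, b, map_mul, e, e']

theorem transv_false [Finite V] {s t : MulAut V} {c : V} (hs : s * s = 1) (ht : t * t = 1)
    (h : ∀ v, s v = v ∨ s v = v * c) (e : s c = c) (e' : t c = c) (ho : Odd (orderOf (s * t))) :
    s * t = 1 := by
  have tt : ∀ v, t (t v) = v := fun v => by rw [← MulAut.mul_apply, ht, MulAut.one_apply]
  have h1 := transv_comm hV (s' := t * s * t) h (fun v => by
    simp only [MulAut.mul_apply]
    rcases h (t v) with a | a <;> simp [a, tt, e']) e (by simp [MulAut.mul_apply, e, e'])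
  refine h9_eq_one_of_odd_of_sq ho (h9_eq_one_of_odd_of_sq ?_ ?_)
  · rw [← sq]; exact h9_odd_orderOf_pow ho 2
  · calc _ = s * (t * s * t) * (s * (t * s * t)) := by group
      _ = s * (t * s * t) * ((t * s * t) * s) := by rw [h1]
      _ = s * (t * (s * (t * t) * s) * t) * s := by group
      _ = 1 := by rw [ht, mul_one, hs, mul_one, ht, mul_one, hs]

/-- the failure of factorization lemma -/
theorem ff [Finite V] {T X : Subgroup (MulAut V)} (h : Prim T X) {z : V} (z1 : z ≠ 1)
    (hz : ∀ x ∈ X, x z = z ↔ x ∈ T) (hc : Nat.card T * Nat.card V ≤ 64) {A : Subgroup (MulAut V)}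
    (hA : A ≤ T) (hA2 : ∀ x ∈ A, x * x = 1) (hA1 : A ≠ ⊥) {F : Subgroup V}
    (hF : ∀ x ∈ A, ∀ v ∈ F, x v = v) (hoff : Nat.card V ≤ Nat.card A * Nat.card F) :
    Nat.card T = 2 ∧ T.relIndex X = 3 ∧ ∃ c : V, c ≠ 1 ∧ (∀ x ∈ T, ∀ v, x v = v ∨ x v = v * c) ∧
      ∀ x ∈ X, x c = c ↔ x ∈ T := by
  have hm : ((fun x => x • z) '' (X : Set (MulAut V))).ncard = T.relIndex X := by
    rw [ncard_smul_eq_relIndex, ← inf_relIndex_right, ← inf_relIndex_right T]
    congr 1
    ext x
    exact ⟨fun a => ⟨(hz x a.2).1 a.1, a.2⟩, fun a => ⟨(hz x a.2).2 a.1, a.2⟩⟩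
  have hodd : ¬ 2 ∣ T.relIndex X := h.sylow.not_dvd_relIndex
  have h1 : T.relIndex X ≠ 1 := fun e => by
    obtain ⟨g, hg, hg'⟩ := h.exists_not_mem
    exact hg' (relIndex_eq_one.1 e hg)
  have hlt : T.relIndex X < Nat.card V := by
    rw [← hm, ← Set.ncard_univ]
    refine Set.ncard_lt_ncard ⟨Set.subset_univ _, fun e => ?_⟩
    obtain ⟨x, -, hx⟩ := e (Set.mem_univ 1)
    exact z1 ((MulEquiv.map_eq_one_iff x).1 hx)
  obtain ⟨k, hk⟩ := h.pg.exists_card_eq
  have hk2 : k ≤ 2 := by
    by_contra hk3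
    have h8 : 8 ≤ Nat.card T := hk ▸ Nat.pow_le_pow_right two_pos (show 3 ≤ k by omega)
    have h9 : Nat.card V ≤ 8 := by nlinarith
    have : T.relIndex X = 3 ∨ T.relIndex X = 5 ∨ T.relIndex X = 7 := by omega
    rcases this with e | e | e <;>
      exact absurd (Nat.le_of_dvd (by norm_num) (h.card_dvd (by norm_num) e)) (by omega)
  have hT : ∀ x ∈ T, ∀ y ∈ T, x * y = y * x := fun x hx y hy =>
    congrArg Subtype.val (comm_of_card_dvd_four (E := T) (hk ▸ pow_dvd_pow 2 hk2) ⟨x, hx⟩ ⟨y, hy⟩)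
  obtain ⟨t, htA, t1⟩ := (bot_or_exists_ne_one A).resolve_left hA1
  have it : IsInv t := ⟨t1, hA2 t htA⟩
  have htT := hA htA
  have tt : ∀ v, t (t v) = v := fun v => by rw [← MulAut.mul_apply, it.mul_self, MulAut.one_apply]
  have hAc : Nat.card A = 2 := by
    rw [← it.card_zpowers]
    congr 2
    refine le_antisymm (fun x hx => ?_) (zpowers_le.2 htA)
    by_cases e : x = 1
    · exact e ▸ one_mem _
    · exact h.inv_eq hT (hA hx) htT ⟨e, hA2 x hx⟩ it ▸ mem_zpowers _
  obtain ⟨v0, hv0⟩ : ∃ v, t v ≠ v := by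
    by_contra e
    push Not at e
    exact t1 (MulEquiv.ext e)
  have hi : F.index = 2 := by
    have a := F.index_mul_card
    have b : F.index ≠ 1 := fun e => hv0 (hF t htA v0 (index_eq_one.1 e ▸ mem_top v0))
    have c := Nat.card_pos (α := F)
    have d : F.index ≤ 2 := by rw [hAc, ← a] at hoff; exact Nat.le_of_mul_le_mul_right hoff c
    have := F.index_ne_zero_of_finite
    omega
  set c := v0 * t v0 with hcdef
  have c1 : c ≠ 1 := fun e => hv0 (by rw [← mul_right_inj v0, ← hcdef, e, hV])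
  have htv : ∀ v, t v = v ∨ t v = v * c := fun v => by
    by_cases e : v ∈ F
    · exact Or.inl (hF t htA v e)
    have := hF t htA _ ((mul_mem_iff_of_index_two hi).2 (iff_of_false e fun e' => hv0 (hF t htA v0 e')))
    rw [map_mul] at this
    right
    calc t v = t v * t v0 * t v0 := by rw [mul_assoc, hV, mul_one]
      _ = _ := by rw [this, mul_assoc]
  have htc : t c = c := by rw [hcdef, map_mul, tt, comm_of_sq hV]
  have key : ∀ g ∈ X, ∀ l ∈ X, l⁻¹ * g ∉ T → (l * t * l⁻¹) (g c) = g c * l c := fun g hg l hl e => by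
    have h2 : ∀ (g : MulAut V) v, (g * t * g⁻¹) v = v ∨ (g * t * g⁻¹) v = v * g c := fun g v => by
      simp only [MulAut.mul_apply]
      rcases htv (g⁻¹ v) with a | a <;> rw [a] <;> simp
    refine (h2 l (g c)).resolve_left fun e' => ?_
    have ho := h.odd_mul hT htT htT it it (X.mul_mem (X.inv_mem hg) hl) fun a =>
      e (by simpa using T.inv_mem a)
    have h3 := transv_false hV (s := t) (t := g⁻¹ * l * t * (g⁻¹ * l)⁻¹) it.mul_self
      (it.conj _).mul_self htv htc (by
        have : (g⁻¹ * l * t * (g⁻¹ * l)⁻¹) c = g⁻¹ ((l * t * l⁻¹) (g c)) := by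
          simp only [MulAut.mul_apply, mul_inv_rev, inv_inv]
        rw [this, e']; simp) ho
    exact e (by simpa using T.inv_mem (h.mem_of_conj hT htT t1 (X.mul_mem (X.inv_mem hg) hl)
      (eq_inv_of_mul_eq_one_right h3 ▸ T.inv_mem htT)))
  obtain ⟨g, hg, hgT⟩ := h.exists_not_mem
  have hg3 : g * t * g⁻¹ ∈ X := X.mul_mem (X.mul_mem hg (h.le htT)) (X.inv_mem hg)
  have h3 : T.relIndex X = 3 := by
    have : ((fun x => x • z) '' (X : Set (MulAut V))) ⊆ {z, g z, (g * t * g⁻¹) z} := by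
      rintro _ ⟨l, hl, rfl⟩
      have aux : ∀ g ∈ X, l⁻¹ * g ∈ T → l • z = g z := fun g hg e => by
        have := (hz _ (h.le e)).2 e
        rw [MulAut.mul_apply] at this
        show l z = g z
        conv_lhs => rw [← this]
        simp
      by_contra e
      simp only [Set.mem_insert_iff, Set.mem_singleton_iff, not_or] at e
      have a1 := key 1 X.one_mem l hl fun a => e.1 (aux 1 X.one_mem a)
      have a2 := key g hg l hl fun a => e.2.1 (aux g hg a)
      have a3 := key _ hg3 l hl fun a => e.2.2 (aux _ hg3 a)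
      have a4 := key 1 X.one_mem g hg (by simpa using hgT)
      rw [MulAut.one_apply] at a1 a4
      rw [a4, map_mul, a1, a2, mul_assoc, ← mul_assoc (l c), comm_of_sq hV (l c), mul_assoc (g c), hV,
        mul_one, left_eq_mul] at a3
      exact c1 ((MulEquiv.map_eq_one_iff l).1 a3)
    have := (Set.ncard_le_ncard this).trans ((Set.ncard_insert_le _ _).trans
      (Nat.succ_le_succ ((Set.ncard_insert_le _ _).trans (Nat.succ_le_succ (Set.ncard_singleton _).le))))
    omega
  have hT2 : Nat.card T = 2 := by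
    have a := Nat.le_of_dvd (by norm_num) (h.card_dvd (by norm_num) h3)
    have b := hAc ▸ card_le_of_le hA
    omega
  have hTA : T = zpowers t := (eq_of_le_of_card_ge (zpowers_le.2 htT) (by rw [hT2, it.card_zpowers])).symm
  have hTe : ∀ x ∈ T, x = 1 ∨ x = t := fun x hx => by
    by_cases e : x = 1
    · exact Or.inl e
    · refine Or.inr (h.inv_eq hT hx htT ⟨e, ?_⟩ it)
      have := pow_card_eq_one' (x := (⟨x, hx⟩ : T))
      rw [hT2, sq] at this
      exact congrArg Subtype.val this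
  refine ⟨hT2, h3, c, c1, fun x hx v => ?_, fun x hx => ⟨fun e => ?_, fun e => ?_⟩⟩
  · rcases hTe x hx with rfl | rfl
    · exact Or.inl rfl
    · exact htv v
  · by_contra e'
    have := key x hx 1 X.one_mem (by simpa using e')
    simp only [one_mul, inv_one, mul_one, e, htc, MulAut.one_apply, left_eq_mul] at this
    exact c1 this
  · rcases hTe x e with rfl | rfl
    · rfl
    · exact htc

end transv

end Cfsg.Lib.Len8
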