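import Cfsg.Agent.Lib.Len8.Amal

/-!
# The amalgam argument: the critical distance is 1
-/

set_option autoImplicit false

namespace Cfsg.Lib.Len8
open Subgroup Cfsg.Lib Cfsg.Lib.FT Cfsg.Lib.Bender

variable {G : Type*} [Group G]

/-- `g ∈ (M a)ⁿ M` -/
inductive Wd (M : Subgroup G) (a : G) : ℕ → G → Prop
  | zero {m : G} : m ∈ M → Wd M a 0 m
  | succ {n : ℕ} {m g : G} : m ∈ M → Wd M a n g → Wd M a (n + 1) (m * a * g)

theorem Wd.mul {M : Subgroup G} {a g l : G} {n k : ℕ} (h : Wd M a n g) (h' : Wd M a k l) :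
    Wd M a (n + k) (g * l) := by
  induction h with
  | zero hm =>
    rw [zero_add]
    cases h' with
    | zero hm' => exact .zero (M.mul_mem hm hm')
    | succ hm' hg => simpa only [mul_assoc] using Wd.succ (M.mul_mem hm hm') hg
  | succ hm _ ih => simpa only [mul_assoc, Nat.succ_add] using Wd.succ hm ih

theorem Wd.inv {M : Subgroup G} {a g : G} {n : ℕ} (ha : a * a ∈ M) (h : Wd M a n g) : Wd M a n g⁻¹ := by
  induction h with
  | zero hm => exact .zero (M.inv_mem hm)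
  | succ hm _ ih =>
    convert ih.mul (Wd.succ M.one_mem (.zero (M.mul_mem (M.inv_mem ha) (M.inv_mem hm)))) using 1
    group

/-- a walk in the coset graph -/
def Walk (M : Subgroup G) (a : G) (f : ℕ → G) : Prop := ∀ i, (f i * a)⁻¹ * f (i + 1) ∈ M

/-- prepending a vertex -/
def cons (g : G) (f : ℕ → G) : ℕ → G
  | 0 => g
  | i + 1 => f i

theorem Walk.cons {M : Subgroup G} {a g : G} {f : ℕ → G} (h : Walk M a f) (hg : (g * a)⁻¹ * f 0 ∈ M) :
    Walk M a (cons g f)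
  | 0 => hg
  | i + 1 => h i

theorem Walk.smul {M : Subgroup G} {a : G} {f : ℕ → G} (h : Walk M a f) (g : G) :
    Walk M a fun i => g * f i := fun i => by simpa [mul_assoc] using h i

theorem Walk.wd {M : Subgroup G} {a : G} {f : ℕ → G} (h : Walk M a f) (i n : ℕ) :
    Wd M a n ((f i)⁻¹ * f (i + n)) := by
  induction n with
  | zero => simpa using Wd.zero M.one_mem
  | succ n ih =>
    convert ih.mul (Wd.succ M.one_mem (.zero (h (i + n)))) using 1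
    rw [add_assoc]; group

theorem Wd.exists_walk {M : Subgroup G} {a g : G} {n : ℕ} (h : Wd M a n g) (u : G) :
    ∃ f, Walk M a f ∧ u⁻¹ * f 0 ∈ M ∧ (f n)⁻¹ * (u * g) ∈ M := by
  induction h generalizing u with
  | zero hm => exact ⟨fun i => u * a ^ i, fun i => by simp [pow_succ, mul_assoc], by simp, by simpa⟩
  | @succ n m g hm _ ih =>
    obtain ⟨f, h1, h2, h3⟩ := ih (u * m * a)
    exact ⟨cons (u * m) f, h1.cons h2, by simpa [cons], by simpa [cons, mul_assoc] using h3⟩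

theorem vert {M Y : Subgroup G} (hY : M ≤ N[Y]) {u v : G} (h : u⁻¹ * v ∈ M) : v •ᶜ Y = u •ᶜ Y := by
  conv_rhs => rw [← conj_eq_iff_mem_normalizer.2 (hY h), conj_conj, mul_inv_cancel_left]

/-- critical pairs -/
def Cr (Q : Subgroup G) (u v : G) : Prop := ¬ u •ᶜ om Q ≤ v •ᶜ Q

theorem cr_smul {Q : Subgroup G} {u v : G} (g : G) : Cr Q (g * u) (g * v) ↔ Cr Q u v := by
  unfold Cr
  rw [← conj_conj, ← conj_conj, conj_le_conj_iff]

/-- no critical pairs at distance less than `b` -/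
def Min (M Q : Subgroup G) (a : G) (b : ℕ) : Prop := ∀ n < b, ∀ u v, Wd M a n (u⁻¹ * v) → ¬ Cr Q u v

theorem sq_of_mem {Q : Subgroup G} {k x : G} (h : x ∈ k •ᶜ om Q) : x * x = 1 := (om_conj k Q ▸ h).2.2

theorem comm_of_mem {Q : Subgroup G} {k x y : G} (h : x ∈ k •ᶜ om Q) (h' : y ∈ k •ᶜ Q) :
    y * x = x * y := (om_conj k Q ▸ h).2.1 y h'

theorem Loc.tvk {M R Q : Subgroup G} {c : G} (l : Loc M R Q c) {k x v : G} (hx : x ∈ k •ᶜ R)
    (hv : v ∈ k •ᶜ om Q) : x * v * x⁻¹ = v ∨ x * v * x⁻¹ = v * (k * c * k⁻¹) := by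
  obtain ⟨x, hx, rfl⟩ := hx
  obtain ⟨v, hv, rfl⟩ := hv
  have e : (MulAut.conj k).toMonoidHom x * (MulAut.conj k).toMonoidHom v *
    ((MulAut.conj k).toMonoidHom x)⁻¹ = k * (x * v * x⁻¹) * k⁻¹ := by simp [mul_assoc]
  rcases l.tv x hx v hv with a | a
  · exact Or.inl (by rw [e, a]; rfl)
  · exact Or.inr (by rw [e, a]; simp [mul_assoc])

namespace Am
variable {M R Q : Subgroup G} {a z : G} (h : Am M R Q a z)
include h

theorem CVk {k x : G} (hx : x ∈ k •ᶜ R) (hc : x ∈ C[k •ᶜ om Q]) : x ∈ k •ᶜ Q := by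
  rw [← conj_centralizer] at hc
  rw [mem_map_conj] at *
  exact h.CV ⟨h.RM hx, hc⟩

theorem aRk (k : G) : (k * a) •ᶜ R = k •ᶜ R := by rw [← conj_conj, h.aR]

theorem exists_crit [Finite G] : ∃ n f, Walk M a f ∧ Cr Q (f 0) (f (n + 1)) ∧ Min M Q a (n + 1) := by
  classical
  have ex : ∃ n, ∃ g, Wd M a n g ∧ Cr Q 1 g := by
    by_contra hc
    push Not at hc
    have key : ∀ x k, Wd M a k x → x ∈ N[⨅ (g : G) (_ : ∃ n, Wd M a n g), g •ᶜ Q] := fun x k hx =>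
      mem_norm_of_conj_le (le_iInf₂ fun g ⟨n, hg⟩ => by
        rw [map_conj_le_iff, conj_conj]
        exact iInf₂_le _ ⟨_, (hx.inv (h.RM h.aa)).mul hg⟩)
    refine h.not_V_le ((iInf₂_le 1 ⟨0, .zero M.one_mem⟩).trans ?_) (fun m hm => key m 0 (.zero hm))
      (key a 1 (by simpa using Wd.succ (a := a) M.one_mem (.zero M.one_mem))) (le_iInf₂ fun g ⟨n, hg⟩ => ?_)
    · rw [conj_eq_of_mem (one_mem _)]; exact h.QR
    · have := not_not.1 (hc n g hg)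
      rwa [conj_eq_of_mem (one_mem _)] at this
  obtain ⟨g, hg, hc⟩ := Nat.find_spec ex
  have hmin : Min M Q a (Nat.find ex) := fun n hn u v hw e =>
    Nat.find_min ex hn ⟨_, hw, (cr_smul u).1 (by simpa using e)⟩
  generalize Nat.find ex = b at *
  obtain ⟨f, h1, h2, h3⟩ := hg.exists_walk 1
  have h4 : Cr Q (f 0) (f b) := by
    unfold Cr at *
    rwa [vert h.nV h2, ← vert h.nQ h3, one_mul]
  cases b with
  | zero => exact absurd (map_mono (om_le Q)) h4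
  | succ n => exact ⟨n, f, h1, h4, hmin⟩

section
variable {n : ℕ} {f : ℕ → G} (hm : Min M Q a (n + 1)) (w : Walk M a f)
include hm w

theorem fwd : f 0 •ᶜ om Q ≤ (f n * a) •ᶜ R := by
  rw [h.aRk]
  exact (not_not.1 (hm n n.lt_succ_self _ _ (by simpa using w.wd 0 n))).trans (map_mono h.QR)

theorem bwd : (f n * a) •ᶜ om Q ≤ f 0 •ᶜ R := by
  have := not_not.1 (hm n n.lt_succ_self (f (n + 1)) (f 1)
    (by simpa [add_comm] using (w.wd 1 n).inv (h.RM h.aa)))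
  rw [vert h.nV (w n), vert h.nQ (w 0)] at this
  exact this.trans (h.aRk _ ▸ map_mono h.QR)

variable (hc : Cr Q (f 0) (f (n + 1)))
include hc

theorem cr1 : ¬ f 0 •ᶜ om Q ≤ (f n * a) •ᶜ Q := by rwa [← vert h.nQ (w n)]

theorem cr2 : ¬ (f n * a) •ᶜ om Q ≤ f 0 •ᶜ Q := fun e => h.cr1 hm w hc fun x hx =>
  h.CVk (h.fwd hm w hx) fun y hy => comm_of_mem hx (e hy)

theorem loc_of_crit [Finite G] : ∃ c, Loc M R Q c := by
  have key : ∀ u v : G, (u •ᶜ om Q) ⊓ v •ᶜ Q ≤ (u •ᶜ om Q) ⊓ C[v •ᶜ om Q] := fun u v =>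
    inf_le_inf_left _ fun x hx y hy => (comm_of_mem hy hx).symm
  rcases le_total (Nat.card ↥((f 0 •ᶜ om Q) ⊓ (f n * a) •ᶜ Q))
    (Nat.card ↥(((f n * a) •ᶜ om Q) ⊓ f 0 •ᶜ Q)) with e | e
  · refine h.loc' (f n * a) (h.fwd hm w) (fun x => sq_of_mem) (h.cr1 hm w hc) ?_
    rw [card_conj]
    exact Nat.mul_le_mul_left _ (e.trans (card_le_of_le (key _ _)))
  · refine h.loc' (f 0) (h.bwd hm w) (fun x => sq_of_mem) (h.cr2 hm w hc) ?_
    rw [card_conj]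
    exact Nat.mul_le_mul_left _ (e.trans (card_le_of_le (key _ _)))

theorem crit_c {c : G} (l : Loc M R Q c) : f 0 * c * (f 0)⁻¹ = f n * a * c * (f n * a)⁻¹ := by
  obtain ⟨x, hx, hx'⟩ := SetLike.not_le_iff_exists.1 (h.cr1 hm w hc)
  obtain ⟨y, hy, e⟩ : ∃ y ∈ (f n * a) •ᶜ om Q, y * x ≠ x * y := by
    by_contra e
    push Not at e
    exact hx' (h.CVk (h.fwd hm w hx) e)
  have h1 := (l.tvk (h.fwd hm w hx) hy).resolve_left fun e' => e (mul_inv_eq_iff_eq_mul.1 e').symm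
  have h2 := (l.tvk (h.bwd hm w hy) hx).resolve_left fun e' => e (mul_inv_eq_iff_eq_mul.1 e')
  have h3 := comm_of_mem hx (conj_mem_conj l.cV.1 (f 0))
  rw [← mul_right_inj y, ← h1, ← mul_right_inj y, ← mul_assoc y y, sq_of_mem hy, one_mul]
  rw [inv_eq_of_mul_eq_one_right (sq_of_mem hy)] at h2
  rw [← mul_assoc, ← mul_assoc, h2, ← h3, mul_inv_cancel_right]

end

theorem not_norm_U : ¬ M ≤ N[(a •ᶜ om Q) ⊔ om Q] := fun e =>
  h.not_V_le (sup_le (h.aR ▸ map_mono ((om_le Q).trans h.QR)) ((om_le Q).trans h.QR)) e (by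
    rw [← conj_eq_iff_mem_normalizer, conj_sup, conj_conj,
      conj_eq_iff_mem_normalizer.2 (h.nV (h.RM h.aa)), sup_comm]) le_sup_right

theorem R_le_aM : R ≤ a •ᶜ M := h.aR.ge.trans (map_mono h.RM)

theorem R_norm_U : R ≤ N[(a •ᶜ om Q) ⊔ om Q] :=
  le_normalizer_sup (h.R_le_aM.trans (conj_normalizer a _ ▸ map_mono h.nV)) (h.RM.trans h.nV)

variable [Finite G] {c : G} (l : Loc M R Q c) {n : ℕ} {f : ℕ → G}
include l

/-- an element of the last `V` which together with `R` generates `M` -/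
theorem exists_y (hm : Min M Q a (n + 1)) (w : Walk M a f) (hc : Cr Q (f 0) (f (n + 1)))
    (h0 : f 0 ∈ M) (h0' : f 0 ∉ R) : ∃ y ∈ (f n * a) •ᶜ om Q, y ∈ M ∧ y ∉ R := by
  obtain ⟨y, hy, hy'⟩ := SetLike.not_le_iff_exists.1 (h.cr2 hm w hc)
  have h1 := h.bwd hm w hy
  rw [conj_eq_iff_mem_normalizer.2 (h.nQ h0)] at hy'
  exact ⟨y, hy, conj_le_of_mem h.RM h0 h1, fun e => hy' (h.inf_le l h0 h0' e (mem_map_conj.1 h1))⟩

theorem shift0 (hm : Min M Q a (n + 2)) (w : Walk M a f) (hc : Cr Q (f 0) (f (n + 2)))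
    (h0 : f 0 ∈ M) (h0' : f 0 ∉ R) : Cr Q a (f (n + 1)) := by
  intro e
  obtain ⟨y, hy, h1, h2⟩ := h.exists_y l hm w hc h0 h0'
  refine h.not_norm_U (h.le_of_gen h.R_norm_U h1 h2 (mem_norm_of_conj_le ?_))
  rw [conj_sup, conj_eq_iff_mem_normalizer.2 (h.nV h1), sup_le_iff]
  refine ⟨?_, le_sup_right⟩
  rintro _ ⟨x, hx, rfl⟩
  have h3 : x ∈ (f (n + 1) * a) •ᶜ R := (h.aRk _).ge (map_mono h.QR (e hx))
  have h4 : f 0 * c * (f 0)⁻¹ ∈ om Q := conj_mem_of_le_normalizer h.nV h0 l.cV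
  have yy := sq_of_mem hy
  show y * x * y⁻¹ ∈ _
  rcases l.tvk h3 hy with e' | e'
  · rw [← mul_inv_eq_iff_eq_mul.1 e', mul_inv_cancel_right]
    exact mem_sup_left hx
  · rw [← h.crit_c hm w hc l] at e'
    have : y * x * y⁻¹ = f 0 * c * (f 0)⁻¹ * x := by
      rw [inv_eq_of_mul_eq_one_right yy, ← mul_right_inj y, ← mul_assoc y (_ * _ * _), ← e',
        ← mul_assoc, ← mul_assoc, yy, one_mul, inv_mul_cancel_right]
    exact this ▸ mul_mem (mem_sup_right h4) (mem_sup_left hx)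

theorem shift (hm : Min M Q a (n + 2)) (w : Walk M a f) (hc : Cr Q (f 0) (f (n + 2))) {m : G}
    (h0 : m ∈ M) (h0' : m ∉ R) : Walk M a (cons (f 0 * m * a) f) ∧
      Cr Q (cons (f 0 * m * a) f 0) (cons (f 0 * m * a) f (n + 2)) := by
  refine ⟨w.cons (by simpa [mul_assoc] using M.inv_mem (M.mul_mem h0 (h.RM h.aa))), ?_⟩
  have := h.shift0 l hm (w.smul (f 0 * m)⁻¹) ((cr_smul _).2 hc) (by simpa) (by simpa)
  rw [← cr_smul (f 0 * m), mul_inv_cancel_left] at this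
  exact this

theorem central (hm : Min M Q a (n + 2)) (w : Walk M a f) (hc : Cr Q (f 0) (f (n + 2))) :
    M ≤ C1[a * c * a⁻¹] := by
  obtain ⟨m, h0, h0'⟩ := h.exists_not_mem
  have w' := w.smul (m * (f 0)⁻¹)
  have hc' := (cr_smul (m * (f 0)⁻¹)).2 hc
  set g : ℕ → G := fun i => m * (f 0)⁻¹ * f i
  have e0 : g 0 = m := by simp [g]
  obtain ⟨y, hy, h1, h2⟩ := h.exists_y l hm w' hc' (e0 ▸ h0) (e0 ▸ h0')
  have h5 := h.shift0 l hm w' hc' (e0 ▸ h0) (e0 ▸ h0')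
  have h3 := h.crit_c hm (w'.cons (g := a) (by
    simpa [e0] using M.mul_mem (M.inv_mem (h.RM h.aa)) h0)) h5 l
  refine h.le_of_gen (fun x hx => ?_) h1 h2 ?_
  · rw [← conj_centralizer_singleton]
    refine (h.aR.ge.trans (map_mono fun x hx => ?_)) hx
    exact mem_centralizer_singleton_iff.2 (mul_inv_eq_iff_eq_mul.1 ((l.fix x (h.RM hx)).2 hx))
  · have h4 : (g (n + 1) * a) •ᶜ om Q ≤ g (n + 1) •ᶜ Q := not_not.1 (hm 1 (by omega) _ _ (by
      simpa using (Wd.succ (a := a) M.one_mem (.zero M.one_mem)).inv (h.RM h.aa)))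
    refine mem_centralizer_singleton_iff.2 (comm_of_mem ?_ (h4 hy))
    rw [vert h.nV (w' n)]
    exact (show a * c * a⁻¹ = g n * a * c * (g n * a)⁻¹ from h3) ▸ conj_mem_conj l.cV _

theorem not_three (hm : Min M Q a (n + 3)) (w : Walk M a f) (hc : Cr Q (f 0) (f (n + 3))) : False := by
  have hz := h.central l hm w hc
  have zz : ∀ u v : G, (u * a)⁻¹ * v ∈ M → u * c * u⁻¹ = v * (a * c * a⁻¹) * v⁻¹ := fun u v e => by
    have := mem_centralizer_singleton_iff.1 (hz (M.mul_mem (h.RM h.aa) e))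
    calc _ = v * ((a * a * ((u * a)⁻¹ * v))⁻¹ * (a * c * a⁻¹ * (a * a * ((u * a)⁻¹ * v)))) * v⁻¹ := by
          group
      _ = _ := by rw [← this]; group
  obtain ⟨m, h0, h0'⟩ := h.exists_not_mem
  have key : ∀ m' ∈ M, m' ∉ R → f 0 * m' * c * (f 0 * m')⁻¹ = f n * (a * c * a⁻¹) * (f n)⁻¹ := by
    intro m' h1 h1'
    obtain ⟨w1, c1⟩ := h.shift l hm w hc h1 h1'
    obtain ⟨w2, c2⟩ := h.shift l hm w1 c1 h0 h0'
    have := h.crit_c hm w2 c2 l
    rw [zz _ _ (w2 0), zz (_ * a) (f n) (by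
      simpa [cons, mul_assoc] using M.inv_mem (h.RM h.aa))] at this
    rw [← this]
    exact zz _ _ (by simp [cons, mul_assoc])
  obtain ⟨t, ht, ht'⟩ := SetLike.not_le_iff_exists.1 h.ne
  have h1 := (key m h0 h0').trans (key (t * m) (M.mul_mem (h.RM ht) h0)
    fun e => h0' ((R.mul_mem_cancel_left ht).1 e)).symm
  refine ht' (h.inf_le l h0 h0' ht ((l.fix _ (M.mul_mem (M.mul_mem (M.inv_mem h0) (h.RM ht)) h0)).1 ?_))
  calc _ = (f 0 * m)⁻¹ * (f 0 * (t * m) * c * (f 0 * (t * m))⁻¹) * (f 0 * m) := by group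
    _ = _ := by rw [← h1]; group

theorem not_two (hm : Min M Q a 2) (hz : M ≤ C1[a * c * a⁻¹]) : False := by
  classical
  have aV : a •ᶜ om Q ≤ Q := by
    have := not_not.1 (hm 1 (by omega) a 1 (by
      simpa using (Wd.succ (a := a) M.one_mem (.zero M.one_mem)).inv (h.RM h.aa)))
    rwa [conj_eq_of_mem (one_mem _)] at this
  obtain ⟨m, h0, h0'⟩ := h.exists_not_mem
  obtain ⟨t, ht, ht'⟩ := SetLike.not_le_iff_exists.1 h.ne
  have hfix : ∀ x ∈ M, ∀ g ∈ M, x * (g * c * g⁻¹) * x⁻¹ = g * c * g⁻¹ → g⁻¹ * x * g ∈ R := fun x hx g hg e =>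
    (l.fix _ (M.mul_mem (M.mul_mem (M.inv_mem hg) hx) hg)).1 (by
      calc _ = g⁻¹ * (x * (g * c * g⁻¹) * x⁻¹) * g := by group
        _ = _ := by rw [e]; group)
  have hs : m * c * m⁻¹ ∈ om Q := conj_mem_of_le_normalizer h.nV h0 l.cV
  have hts := (l.tv t ht _ hs).resolve_left fun e => ht' (h.inf_le l h0 h0' ht (hfix t (h.RM ht) m h0 e))
  have hne : ∀ g ∈ M, a * c * a⁻¹ ≠ g * c * g⁻¹ := fun g hg e => h0' (by
    simpa [mul_assoc] using hfix _ (M.mul_mem (M.mul_mem hg h0) (M.inv_mem hg)) g hg (by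
      rw [← e, mem_centralizer_singleton_iff.1 (hz (M.mul_mem (M.mul_mem hg h0) (M.inv_mem hg))),
        mul_inv_cancel_right]))
  have hca : a * c * a⁻¹ ∈ om Q := ⟨aV (conj_mem_conj l.cV a), fun y hy =>
    mem_centralizer_singleton_iff.1 (hz (h.QM hy)), sq_of_mem (conj_mem_conj l.cV a)⟩
  have hsc : m * c * m⁻¹ ≠ c := fun e => h0' ((l.fix m h0).1 e)
  have hV5 : 5 ≤ Nat.card (om Q) := by
    have e1 := hne 1 M.one_mem
    have e2 := hne m h0
    have e3 := hne (t * m) (M.mul_mem (h.RM ht) h0)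
    rw [show t * m * c * (t * m)⁻¹ = t * (m * c * m⁻¹) * t⁻¹ by group, hts] at e3
    have e4 : m * c * m⁻¹ * c ≠ 1 := fun e =>
      hsc ((eq_inv_of_mul_eq_one_left e).trans (inv_eq_of_mul_eq_one_right l.cV.2.2))
    have : ({1, c, m * c * m⁻¹, m * c * m⁻¹ * c, a * c * a⁻¹} : Finset G).card = 5 := by
      have := l.c1
      rw [one_mul, inv_one, mul_one] at e1
      rw [Finset.card_insert_of_notMem, Finset.card_insert_of_notMem, Finset.card_insert_of_notMem,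
        Finset.card_pair e3.symm] <;> simp [*, eq_comm, hsc.symm, e1.symm, e2.symm, e4.symm]
    rw [← this, ← Set.ncard_coe_finset, ← SetLike.coe_sort_coe, Nat.card_coe_set_eq]
    refine Set.ncard_le_ncard fun x hx => ?_
    simp only [Finset.coe_insert, Finset.coe_singleton, Set.mem_insert_iff, Set.mem_singleton_iff] at hx
    rcases hx with rfl | rfl | rfl | rfl | rfl
    exacts [one_mem _, l.cV, hs, mul_mem hs l.cV, hca]
  set U := (a •ᶜ om Q) ⊔ om Q with hU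
  have hUQ : U ≤ Q := sup_le aV (om_le Q)
  have hU2 : ∀ x ∈ U, x * x = 1 := fun x hx => by
    obtain ⟨y, hy, v, hv, rfl⟩ := (mem_sup_of_le_normalizer' (aV.trans (h.QM.trans h.nV))).1 hx
    rw [mul_assoc, ← mul_assoc v, ← hv.2.1 y (aV hy), mul_assoc, hv.2.2, mul_one, sq_of_mem hy]
  have hUn : ∀ g ∈ M, g ∉ R → g •ᶜ U ≠ U := fun g hg hg' e =>
    h.not_norm_U (h.le_of_gen h.R_norm_U hg hg' (conj_eq_iff_mem_normalizer.1 e))
  have hVU : om Q < U := lt_of_le_of_ne le_sup_right fun e =>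
    hUn m h0 h0' (e ▸ conj_eq_iff_mem_normalizer.2 (h.nV h0))
  have hUQ' : U < Q := lt_of_le_of_ne hUQ fun e => hUn m h0 h0' (e ▸ conj_eq_iff_mem_normalizer.2 (h.nQ h0))
  have hQ : IsPGroup 2 Q := h.pg.to_le h.QR
  have c1 := relIndex_mul_card h.QR
  rw [l.i2] at c1
  have c2 := h.card
  obtain ⟨i, hi⟩ := (hQ.to_le (om_le Q)).exists_card_eq
  obtain ⟨j, hj⟩ := (hQ.to_le hUQ).exists_card_eq
  obtain ⟨k, hk⟩ := hQ.exists_card_eq
  have c3 := tr_card_lt_of_lt hVU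
  have c4 := tr_card_lt_of_lt hUQ'
  rw [hi] at hV5
  rw [hi, hj, Nat.pow_lt_pow_iff_right one_lt_two] at c3
  rw [hj, hk, Nat.pow_lt_pow_iff_right one_lt_two] at c4
  have c5 : 2 < i := (Nat.pow_lt_pow_iff_right one_lt_two).1 (by omega)
  have c6 : k < 6 := (Nat.pow_lt_pow_iff_right one_lt_two).1 (by omega)
  obtain ⟨rfl, rfl, rfl⟩ : i = 3 ∧ j = 4 ∧ k = 5 := by omega
  have hg : ∀ g ∈ M, om Q ≤ g •ᶜ U ∧ g •ᶜ U ≤ Q ∧ (g •ᶜ U).relIndex Q = 2 := fun g hg =>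
    have e : g •ᶜ U ≤ Q := conj_eq_iff_mem_normalizer.2 (h.nQ hg) ▸ map_mono hUQ
    ⟨conj_eq_iff_mem_normalizer.2 (h.nV hg) ▸ map_mono le_sup_right, e,
      relIndex_two_of_card e (by rw [card_conj, hk, hj]; norm_num)⟩
  have hinf : ∀ g ∈ M, ∀ g' ∈ M, g⁻¹ * g' ∉ R → ∀ x ∈ g •ᶜ U, x ∈ g' •ᶜ U → x ∈ om Q := by
    intro g hg1 g' hg2 e x hx hx'
    have d1 : (g •ᶜ U) ⊓ g' •ᶜ U < g •ᶜ U := lt_of_le_of_ne inf_le_left fun e' =>
      hUn _ (M.mul_mem (M.inv_mem hg1) hg2) e (by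
        rw [← conj_conj, ← eq_of_le_of_card_ge (inf_eq_left.1 e') (by rw [card_conj, card_conj]),
          conj_conj, inv_mul_cancel, conj_eq_of_mem (one_mem _)])
    obtain ⟨r, hr⟩ := (hQ.to_le (d1.le.trans (hg g hg1).2.1)).exists_card_eq
    have d2 := tr_card_lt_of_lt d1
    rw [hr, card_conj, hj, Nat.pow_lt_pow_iff_right one_lt_two] at d2
    exact (eq_of_le_of_card_ge (le_inf (hg g hg1).1 (hg g' hg2).1)
      (hi ▸ hr ▸ Nat.pow_le_pow_right two_pos (by omega))).ge ⟨hx, hx'⟩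
  have htm := M.mul_mem (h.RM ht) h0
  have r1 : (1 : G)⁻¹ * m ∉ R := by simpa
  have r2 : (1 : G)⁻¹ * (t * m) ∉ R := by simpa using fun e => h0' ((R.mul_mem_cancel_left ht).1 e)
  have r3 : m⁻¹ * (t * m) ∉ R := fun e => ht' (h.inf_le l h0 h0' ht (mul_assoc m⁻¹ t m ▸ e))
  have ex : ∀ g ∈ M, ∃ x ∈ g •ᶜ U, x ∉ om Q := fun g hg1 => SetLike.not_le_iff_exists.1 fun e => by
    have := card_le_of_le e
    rw [card_conj, hi, hj] at this
    omega
  have sq : ∀ g : G, ∀ x ∈ g •ᶜ U, x * x = 1 := by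
    rintro g _ ⟨x, hx, rfl⟩
    rw [← map_mul, hU2 x hx, map_one]
  obtain ⟨x0, a0, b0⟩ := ex 1 M.one_mem
  obtain ⟨x2, a2, b2⟩ := ex _ htm
  have hcomm : ∀ x1 ∈ m •ᶜ U, x0 * x1 = x1 * x0 := fun x1 a1 => by
    by_cases b1 : x1 ∈ om Q
    · exact b1.2.1 x0 ((hg 1 M.one_mem).2.1 a0)
    have q0 := (hg 1 M.one_mem).2.1 a0
    have q1 := (hg m h0).2.1 a1
    have q2 := (hg _ htm).2.1 a2
    have d0 := mul_mem_of_two (hg 1 M.one_mem).2.2 q2 (Q.mul_mem q0 q1)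
      (fun e => b2 (hinf 1 M.one_mem _ htm r2 _ e a2))
      (fun e => b1 (hinf 1 M.one_mem _ h0 r1 _ ((mul_mem_cancel_left a0).1 e) a1))
    have d1 := mul_mem_of_two (hg m h0).2.2 q2 (Q.mul_mem q0 q1)
      (fun e => b2 (hinf m h0 _ htm r3 _ e a2))
      (fun e => b0 (hinf 1 M.one_mem _ h0 r1 _ a0 ((mul_mem_cancel_right a1).1 e)))
    exact h9_comm_of_sq (sq _ _ a0) (sq _ _ a1) (sq _ _ ((mul_mem_cancel_left a2).1
      ((hg _ htm).1 (hinf 1 M.one_mem m h0 r1 _ d0 d1))))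
  refine b0 ⟨(hg 1 M.one_mem).2.1 a0, fun y hy => ?_, sq _ _ a0⟩
  by_cases e : y ∈ m •ᶜ U
  · exact (hcomm y e).symm
  · have := hcomm _ (mul_mem_of_two (hg m h0).2.2 ((hg 1 M.one_mem).2.1 a0) hy
      (fun e => b0 (hinf 1 M.one_mem _ h0 r1 _ a0 e)) e)
    rwa [mul_assoc, mul_right_inj, eq_comm] at this

omit l in
theorem dist_one : ∃ c, Loc M R Q c ∧ ¬ om Q ≤ a •ᶜ Q := by
  obtain ⟨n, f, w, hc, hm⟩ := h.exists_crit
  obtain ⟨c, l⟩ := h.loc_of_crit hm w hc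
  refine ⟨c, l, ?_⟩
  match n with
  | 0 => exact fun e => h.cr1 hm w hc (by rw [← conj_conj]; exact map_mono e)
  | 1 => exact (h.not_two l hm (h.central l hm w hc)).elim
  | n + 2 => exact (h.not_three l hm w hc).elim

end Am

end Cfsg.Lib.Len8
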