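import Cfsg.Agent.Lib.Len8.Graph

/-!
# The vertex stabilizer is `S₄ × C`
-/

set_option autoImplicit false

namespace Cfsg.Lib.Len8
open Subgroup Cfsg.Lib Cfsg.Lib.FT Cfsg.Lib.Bender

variable {G : Type*} [Group G]

/-- `Q = ⟨c, s⟩ × C`, `R = ⟨s, t⟩ × C`, and `ρ` centralizes `C` and permutes `c, s, sc` -/
structure S4C (R Q C : Subgroup G) (c s t ρ : G) : Prop where
  cV : c ∈ om Q
  sV : s ∈ om Q
  tt : t * t = 1
  tc : t * c * t⁻¹ = c
  ts : t * s * t⁻¹ = s * c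
  ρc : ρ * c * ρ⁻¹ = s
  ρs : ρ * s * ρ⁻¹ = s * c
  ρC : ρ ∈ C[C]
  tC : t ∈ C[C]
  CQ : C ≤ Q
  QR : Q ≤ R
  tR : t ∈ R
  cC : c ∉ C
  mem : ∀ q ∈ Q, q ∈ C ∨ q * c ∈ C ∨ q * s ∈ C ∨ q * s * c ∈ C
  i2 : Q.relIndex R = 2
  card : Nat.card Q = 4 * Nat.card C

theorem Am.s4c [Finite G] {M R Q : Subgroup G} {a z : G} (h : Am M R Q a z) :
    ∃ C c s t ρ, S4C R Q C c s t ρ ∧ ρ ∈ M ∧
      ∃ Y ≤ C, M ≤ N[Y] ∧ a ∈ N[Y] ∧ Nat.card C ≤ 2 * Nat.card Y := by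
  obtain ⟨c, l, hV⟩ := h.dist_one
  have aaQ : (a * a) •ᶜ Q = Q := conj_eq_iff_mem_normalizer.2 (h.nQ (h.RM h.aa))
  have aaV : (a * a) •ᶜ om Q = om Q := conj_eq_iff_mem_normalizer.2 (h.nV (h.RM h.aa))
  have aQ : a •ᶜ Q ≤ R := h.aR ▸ map_mono h.QR
  have aQ2 : (a •ᶜ Q).relIndex R = 2 := by rw [← l.i2, ← relIndex_conj a Q R, h.aR]
  obtain ⟨t, ht, htQ⟩ := SetLike.not_le_iff_exists.1 (show ¬ a •ᶜ om Q ≤ Q from fun e =>
    hV (by rw [← aaV, ← conj_conj]; exact map_mono e))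
  have tt := sq_of_mem ht
  have tR : t ∈ R := aQ (map_mono (om_le Q) ht)
  obtain ⟨y, hy, hyQ⟩ := SetLike.not_le_iff_exists.1 hV
  have tv : ∀ q ∈ Q, t * q * t⁻¹ = q ∨ t * q * t⁻¹ = q * c := fun q hq => by
    by_cases e : q ∈ a •ᶜ Q
    · exact Or.inl (by rw [← comm_of_mem ht e, mul_inv_cancel_right])
    have e1 := comm_of_mem ht (mul_mem_of_two aQ2 (h.QR hq) (h.QR hy.1) e hyQ)
    have e2 : t * q * t⁻¹ = q * y * (t * y * t⁻¹) := by
      calc _ = t * (q * y) * y * t⁻¹ := by rw [mul_assoc t (q * y), mul_assoc q y y, hy.2.2, mul_one]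
        _ = _ := by rw [← e1]; group
    rcases l.tv t tR y hy with e3 | e3
    · exact Or.inl (by rw [e2, e3, mul_assoc, hy.2.2, mul_one])
    · exact Or.inr (by rw [e2, e3, mul_assoc, ← mul_assoc y, hy.2.2, one_mul])
  have tmove : ∀ v ∈ om Q, v ∉ a •ᶜ Q → t * v ≠ v * t := fun v hv hv' e =>
    htQ (h.cent ⟨h.RM tR, fun q hq => by
      by_cases e' : q ∈ a •ᶜ Q
      · exact comm_of_mem ht e'
      have := comm_of_mem ht (mul_mem_of_two aQ2 (h.QR hq) (h.QR hv.1) e' hv')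
      rwa [mul_assoc, ← e, ← mul_assoc, ← mul_assoc, mul_left_inj] at this⟩)
  obtain ⟨m, h0, h0'⟩ := h.exists_not_mem
  set s := m * c * m⁻¹ with hs
  set t' := m * t * m⁻¹ with ht'
  have sV : s ∈ om Q := conj_mem_of_le_normalizer h.nV h0 l.cV
  have t'M : t' ∈ M := M.mul_mem (M.mul_mem h0 (h.RM tR)) (M.inv_mem h0)
  have t'R : t' ∉ R := fun e => htQ (h.inf_le l (M.inv_mem h0) (by simpa) tR (by simpa using e))
  have tc : t * c * t⁻¹ = c := (l.fix t (h.RM tR)).2 tR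
  have ts : t * s * t⁻¹ = s * c := (tv s sV.1).resolve_left fun e =>
    htQ (h.inf_le l h0 h0' tR ((l.fix _ (M.mul_mem (M.mul_mem (M.inv_mem h0) (h.RM tR)) h0)).1 (by
      calc _ = m⁻¹ * (t * s * t⁻¹) * m := by rw [hs]; group
        _ = _ := by rw [e, hs]; group)))
  have tv' : ∀ q ∈ Q, t' * q * t'⁻¹ = q ∨ t' * q * t'⁻¹ = q * s := fun q hq => by
    have e : t' * q * t'⁻¹ = m * (t * (m⁻¹ * q * m) * t⁻¹) * m⁻¹ := by rw [ht']; group
    rcases tv _ (conj_mem_of_le_normalizer' h.nQ h0 hq) with e' | e'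
    · exact Or.inl (by rw [e, e']; group)
    · exact Or.inr (by rw [e, e', hs]; group)
  have t's : t' * s * t'⁻¹ = s := by
    calc _ = m * (t * c * t⁻¹) * m⁻¹ := by rw [ht', hs]; group
      _ = _ := by rw [tc]
  have t'c : t' * c * t'⁻¹ = c * s := (tv' c l.cV.1).resolve_left fun e => t'R ((l.fix _ t'M).1 e)
  have cc := l.cV.2.2
  have ss := sV.2.2
  have sc : s * c = c * s := l.cV.2.1 s sV.1
  have mc : ∀ {g x : G}, x ∈ C1[g] ↔ g * x * g⁻¹ = x := by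
    intro g x
    rw [mem_centralizer_singleton_iff, mul_inv_eq_iff_eq_mul, eq_comm]
  have cj : ∀ g x y : G, g * (x * y) * g⁻¹ = g * x * g⁻¹ * (g * y * g⁻¹) := fun g x y => by group
  set Q1 := Q ⊓ C1[t] with hQ1
  set C := Q1 ⊓ C1[t'] with hC
  have s1 : s ≠ 1 := by simpa [hs] using l.c1
  have m1 : ∀ q ∈ Q, q ∈ Q1 ∨ q * s ∈ Q1 := fun q hq => (tv q hq).imp (fun e => ⟨hq, mc.2 e⟩)
    fun e => ⟨Q.mul_mem hq sV.1, mc.2 (by
      rw [cj, e, ts, mul_assoc, ← mul_assoc c, ← sc, mul_assoc s, cc, mul_one])⟩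
  have cQ1 : c ∈ Q1 := ⟨l.cV.1, mc.2 tc⟩
  have m2 : ∀ q ∈ Q1, q ∈ C ∨ q * c ∈ C := fun q hq => (tv' q hq.1).imp (fun e => ⟨hq, mc.2 e⟩)
    fun e => ⟨Q1.mul_mem hq cQ1, mc.2 (by
      rw [cj, e, t'c, mul_assoc, ← mul_assoc s, sc, mul_assoc c, ss, mul_one])⟩
  have cC : c ∉ C := fun e => s1 (by simpa [t'c] using mc.1 e.2)
  have sQ : s ∉ Q1 := fun e => l.c1 (by simpa [ts] using mc.1 e.2)
  have two : ∀ {A B : Subgroup G} {x : G}, A ≤ B → x ∈ B → x ∉ A → (∀ q ∈ B, q ∈ A ∨ q * x ∈ A) →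
      Nat.card B = 2 * Nat.card A := by
    intro A B x hle hx hx' hq
    rw [← relIndex_mul_card hle, relIndex_eq_two_iff.2 ⟨x, hx, fun b hb => ?_⟩]
    rcases hq b hb with e | e
    · exact Or.inr ⟨e, fun e' => hx' ((A.mul_mem_cancel_left e).1 e')⟩
    · exact Or.inl ⟨e, fun e' => hx' ((A.mul_mem_cancel_left e').1 e)⟩
  have k1 : Nat.card Q = 2 * Nat.card Q1 := two inf_le_left sV.1 sQ m1
  have k2 : Nat.card Q1 = 2 * Nat.card C := two inf_le_left cQ1 cC m2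
  have tC : t ∈ C[C] := fun x hx => mem_centralizer_singleton_iff.1 hx.1.2
  have t'C : t' ∈ C[C] := fun x hx => mem_centralizer_singleton_iff.1 hx.2
  have CQ : C ≤ Q := inf_le_left.trans inf_le_left
  have mem : ∀ q ∈ Q, q ∈ C ∨ q * c ∈ C ∨ q * s ∈ C ∨ q * s * c ∈ C := fun q hq => by
    rcases m1 q hq with e | e
    · exact (m2 q e).imp_right Or.inl
    · exact Or.inr (Or.inr (m2 _ e))
  have gen : ∀ Y ≤ C, Q ≤ N[Y] → M ≤ N[Y] := fun Y hY e =>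
    have e' : C[C] ≤ N[Y] := (centralizer_le hY).trans (centralizer_le_normalizer _)
    h.le_of_gen (fun x hx => by
      by_cases e1 : x ∈ Q
      · exact e e1
      · exact (mul_mem_cancel_right (e' tC)).1 (e (mul_mem_of_two l.i2 hx tR e1 htQ))) t'M t'R (e' t'C)
  have nC : M ≤ N[C] := gen C le_rfl fun q hq => by
    have hc : c ∈ N[C] := centralizer_le_normalizer _ (centralizer_le CQ l.cV.2.1)
    have hs : s ∈ N[C] := centralizer_le_normalizer _ (centralizer_le CQ sV.2.1)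
    rcases mem q hq with e | e | e | e
    · exact le_normalizer e
    · exact (mul_mem_cancel_right hc).1 (le_normalizer e)
    · exact (mul_mem_cancel_right hs).1 (le_normalizer e)
    · exact (mul_mem_cancel_right hs).1 ((mul_mem_cancel_right hc).1 (le_normalizer e))
  have aC : a •ᶜ C ≤ Q1 := fun x hx => by
    have hx1 := map_mono CQ hx
    refine ⟨by_contra fun e => ?_, mem_centralizer_singleton_iff.2 (comm_of_mem ht hx1)⟩
    have t1 : a * t * a⁻¹ ∈ om Q := by rw [← aaV, ← conj_conj]; exact conj_mem_conj ht a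
    have t2 : a * t * a⁻¹ ∈ C[a •ᶜ C] := conj_centralizer a C ▸ conj_mem_conj tC a
    refine tmove _ t1 (fun e' => htQ (conj_mem_conj_iff.1 e')) ?_
    have e1 := t1.2.1 _ (mul_mem_of_two l.i2 (aQ hx1) tR e htQ)
    rwa [mul_assoc, ← mul_assoc (a * t * a⁻¹), ← t2 x hx, mul_assoc x, mul_right_inj] at e1
  refine ⟨C, c, s, t, t * t', ⟨l.cV, sV, tt, tc, ?_, ?_, ?_, mul_mem tC t'C, tC, CQ, h.QR, tR, cC, mem, l.i2,
    by omega⟩, M.mul_mem (h.RM tR) t'M, (a •ᶜ C) ⊓ C, inf_le_right, gen _ inf_le_right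
      (le_normalizer_inf ((h.QR.trans h.R_le_aM).trans (conj_normalizer a _ ▸ map_mono nC))
        (h.QM.trans nC)), ?_, ?_⟩
  · exact ts
  · calc _ = t * (t' * c * t'⁻¹) * t⁻¹ := by group
      _ = _ := by rw [t'c, cj, tc, ts, ← mul_assoc, ← sc, mul_assoc, cc, mul_one]
  · calc _ = t * (t' * s * t'⁻¹) * t⁻¹ := by group
      _ = _ := by rw [t's, ts]
  · rw [← conj_eq_iff_mem_normalizer, conj_inf, conj_conj,
      conj_eq_iff_mem_normalizer.2 (nC (h.RM h.aa)), inf_comm]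
  · rw [← card_conj a C]
    exact card_le_mul_card_inf aC inf_le_left k2.le

end Cfsg.Lib.Len8
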